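import Cfsg.Agent.H492.HT.DThree
import Cfsg.Agent.Fischer.Y322Iso
import Cfsg.Agent.S1688
import Cfsg.Agent.H820.ElFi24
import Cfsg.Agent.H820.ElB
import Cfsg.Agent.H635.Inv.MonFi

/-!
# S4933: `3`-subgroups of derived length at least 3 in `Fi22`, `Fi23`, `Fi24'`, `B`, `M`

All these groups have `PΩ₇(3)` as a section.
-/

set_option autoImplicit false

namespace Cfsg.Agent.H492.HT

open Cfsg Cfsg.Agent.H720.HT

theorem dd3_Fi22 : DD 3 Spor.Fi22 := by
  obtain ⟨e⟩ := Fischer.Y322Iso.main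
  exact (Omega.dd3_o7.of_equiv e.symm).of_subgroup

theorem dd3_Fi23 : DD 3 Spor.Fi23 := by
  obtain ⟨-, ⟨e⟩, -⟩ := S1688.result
  have : Finite Spor.Fi23 := Nat.finite_of_card_ne_zero (by rw [S1697.result.2]; norm_num)
  have : Fact (Nat.Prime 3) := ⟨Nat.prime_three⟩
  exact dd3_Fi22.of_section _ (e.toMonoidHom.comp (QuotientGroup.mk' _))
    (e.surjective.comp (QuotientGroup.mk'_surjective _))

theorem dd3_Fi24' : DD 3 Spor.Fi24' := by
  obtain ⟨f, hf⟩ := H820.ElFi24.exists_hom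
  exact dd3_Fi23.of_injective f hf

theorem dd3_BabyMonster : DD 3 Spor.BabyMonster := by
  obtain ⟨f, hf⟩ := H820.ElB.exists_hom
  exact dd3_Fi23.of_injective f hf

theorem dd3_Monster : DD 3 Spor.Monster := by
  obtain ⟨f, hf⟩ := H635.Inv.MonFi.exists_fi23
  exact dd3_Fi23.of_injective f hf

theorem dd3_fi22 {S : Type*} [Group S] (h : Spor.IsoFi22 S) : DD 3 S := by
  obtain ⟨e⟩ := h
  exact dd3_Fi22.of_equiv e.symm

theorem dd3_fi23 {S : Type*} [Group S] (h : Spor.IsoFi23 S) : DD 3 S := by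
  obtain ⟨e⟩ := h
  exact dd3_Fi23.of_equiv e.symm

theorem dd3_fi24 {S : Type*} [Group S] (h : Spor.IsoFi24' S) : DD 3 S := by
  obtain ⟨e⟩ := h
  exact dd3_Fi24'.of_equiv e.symm

theorem dd3_b {S : Type*} [Group S] (h : Spor.IsoB S) : DD 3 S := by
  obtain ⟨e⟩ := h
  exact dd3_BabyMonster.of_equiv e.symm

theorem dd3_m {S : Type*} [Group S] (h : Spor.IsoM S) : DD 3 S := by
  obtain ⟨e⟩ := h
  exact dd3_Monster.of_equiv e.symm

end Cfsg.Agent.H492.HT
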